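import Cfsg.Agent.H129.Isolated
import Cfsg.Agent.H564.PSL
import Cfsg.Agent.H501.RealGen
import Cfsg.Agent.H479.SelfCentPSL

/-!
# The isolated Hall subgroups of `PSL_n(q)` (helper129)

* `isCyclic_T` : an abelian subgroup of `PSL_n(q)` whose order is not divisible by primes at distance at most two from
  `2` is cyclic, unless `(n, q) = (3, 4)`, or `n = 2` and `q` is odd and not prime.
* `row_isPSL` : the row of `PSL_n(q)`.
-/

set_option autoImplicit false
set_option linter.unusedSectionVars false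

namespace Cfsg.Agent.H129.IsoPSL

open Matrix Subgroup
open Cfsg.Agent.H94.PG Cfsg.Agent.H564.NearTwo Cfsg.Agent.H564.PSLn Cfsg.Agent.H182.Cent Cfsg.Agent.H129.Isolated

/-- Noncyclic `p`-subgroups lift to noncyclic `p`-subgroups. -/
theorem exists_lift {G H : Type*} [Group G] [Finite G] [Group H] {f : G →* H} (hf : Function.Surjective f) {p : ℕ}
    [Fact p.Prime] {R : Subgroup H} (hR : IsPGroup p R) (hnc : ¬ IsCyclic R) :
    ∃ P : Subgroup G, IsPGroup p P ∧ ¬ IsCyclic P ∧ P.map f ≤ R := by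
  have hf' : Function.Surjective (f.subgroupComap R) := f.subgroupComap_surjective_of_surjective R hf
  obtain ⟨Q⟩ : Nonempty (Sylow p ↥(R.comap f)) := inferInstance
  refine ⟨(Q : Subgroup ↥(R.comap f)).map (R.comap f).subtype, Q.2.map _, fun hc => hnc ?_, ?_⟩
  · have hc' : IsCyclic ↥(Q : Subgroup ↥(R.comap f)) :=
      ((Q : Subgroup ↥(R.comap f)).equivMapOfInjective _ (R.comap f).subtype_injective).isCyclic.2 hc
    have h1 : ((Sylow.mapSurjective hf' Q : Sylow p ↥R) : Subgroup ↥R) = ⊤ := by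
      have h2 : IsPGroup p ↥(⊤ : Subgroup ↥R) := hR.to_subgroup ⊤
      exact ((Sylow.mapSurjective hf' Q).3 h2 le_top).symm
    have h3 : (Q : Subgroup ↥(R.comap f)).map (f.subgroupComap R) = ⊤ := h1
    refine isCyclic_of_surjective ((f.subgroupComap R).comp (Q : Subgroup ↥(R.comap f)).subtype) fun x => ?_
    have h4 : x ∈ (Q : Subgroup ↥(R.comap f)).map (f.subgroupComap R) := by rw [h3]; exact mem_top x
    obtain ⟨y, hy, rfl⟩ := h4
    exact ⟨⟨y, hy⟩, rfl⟩
  · rintro _ ⟨_, ⟨⟨y, hy⟩, -, rfl⟩, rfl⟩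
    exact hy

variable {F : Type*} [Field F] {n : ℕ}

/-- the natural representation -/
noncomputable def natRep (F : Type*) [Field F] (n : ℕ) :
    Matrix.SpecialLinearGroup (Fin n) F →* Module.End F (Fin n → F) where
  toFun g := Matrix.toLin' (g : Matrix (Fin n) (Fin n) F)
  map_one' := by rw [Matrix.SpecialLinearGroup.coe_one, Matrix.toLin'_one]; rfl
  map_mul' a b := by rw [Matrix.SpecialLinearGroup.coe_mul, Matrix.toLin'_mul]; rfl

theorem natRep_apply (g : Matrix.SpecialLinearGroup (Fin n) F) (v : Fin n → F) :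
    natRep F n g v = (g : Matrix (Fin n) (Fin n) F) *ᵥ v := Matrix.toLin'_apply _ _

theorem natRep_injective : Function.Injective (natRep F n) := fun _ _ h =>
  Subtype.ext (Matrix.toLin'.injective h)

theorem coe_pow_mulVec {g : Matrix.SpecialLinearGroup (Fin n) F} {v : Fin n → F}
    (h : (g : Matrix (Fin n) (Fin n) F) *ᵥ v = v) (k : ℕ) : (g : Matrix (Fin n) (Fin n) F) ^ k *ᵥ v = v := by
  induction k with
  | zero => rw [pow_zero, one_mulVec]
  | succ k ih => rw [pow_succ, ← mulVec_mulVec, h, ih]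

theorem mk_ne_one {y : Matrix.SpecialLinearGroup (Fin n) F} (hy1 : y ≠ 1) {v : Fin n → F} (hv0 : v ≠ 0)
    (hv : (y : Matrix (Fin n) (Fin n) F) *ᵥ v = v) : mk F n y ≠ 1 := by
  intro h
  obtain ⟨c, hc⟩ := exists_scalar h
  apply hy1
  apply Subtype.ext
  rw [hc, Matrix.SpecialLinearGroup.coe_one]
  rw [hc, scalar_apply, ← smul_one_eq_diagonal, smul_mulVec, one_mulVec] at hv
  have h1 : (c - 1) • v = 0 := by rw [sub_smul, hv, one_smul, sub_self]
  have h2 : c = 1 := sub_eq_zero.1 ((smul_eq_zero.1 h1).resolve_right hv0)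
  rw [h2, map_one]

/-- **commuting elements of order `r`, one fixing a vector not fixed by the other** -/
theorem adj_two_of_fix [Finite F] {y b : Matrix.SpecialLinearGroup (Fin n) F} {r : ℕ} (hr : r.Prime)
    (hr2 : r ≠ 2) (hrF : (r : F) ≠ 0) (hroot : ∀ c : F, c ^ r = 1 → c = 1) (hy : y ^ r = 1) (hy1 : y ≠ 1)
    (hb : b ^ r = 1) (hc : b * y = y * b) {v : Fin n → F} (hv : (y : Matrix (Fin n) (Fin n) F) *ᵥ v = v)
    (hbv : (b : Matrix (Fin n) (Fin n) F) *ᵥ v ≠ v) : Adj (ProjectiveSpecialLinearGroup (Fin n) F) r 2 := by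
  have hv0 : v ≠ 0 := by
    rintro rfl
    exact hbv (mulVec_zero _)
  have hn : 0 < n := by
    rcases Nat.eq_zero_or_pos n with h | h
    · subst h
      exact absurd (Subsingleton.elim v 0) hv0
    · exact h
  have f : Fact r.Prime := ⟨hr⟩
  have ho : orderOf (mk F n y) = r := orderOf_eq_prime (by rw [← map_pow, hy, map_one]) (mk_ne_one hy1 hv0 hv)
  set Y : Matrix (Fin n) (Fin n) F := (y : Matrix (Fin n) (Fin n) F) with hYd
  set B : Matrix (Fin n) (Fin n) F := (b : Matrix (Fin n) (Fin n) F) with hBd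
  have hYr : Y ^ r = 1 := by
    rw [hYd, ← Matrix.SpecialLinearGroup.coe_pow, hy, Matrix.SpecialLinearGroup.coe_one]
  have hBr : B ^ r = 1 := by
    rw [hBd, ← Matrix.SpecialLinearGroup.coe_pow, hb, Matrix.SpecialLinearGroup.coe_one]
  have hBY : Commute B Y := by
    change B * Y = Y * B
    rw [hBd, hYd, ← Matrix.SpecialLinearGroup.coe_mul, hc, Matrix.SpecialLinearGroup.coe_mul]
  let e : Matrix (Fin n) (Fin n) F := ∑ i ∈ Finset.range r, Y ^ i
  have he : e * Y = e := by
    have h1 : e * Y - e = Y ^ r - 1 := by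
      rw [← geom_sum_mul Y r]
      change e * Y - e = e * (Y - 1)
      rw [mul_sub, mul_one]
    rw [hYr, sub_self] at h1
    exact sub_eq_zero.1 h1
  have hev : e *ᵥ v = (r : F) • v := by
    change (∑ i ∈ Finset.range r, Y ^ i) *ᵥ v = _
    rw [Matrix.sum_mulVec, Finset.sum_congr rfl fun i _ => coe_pow_mulVec hv i, Finset.sum_const, Finset.card_range,
      Nat.cast_smul_eq_nsmul]
  have he0 : e ≠ 0 := by
    intro h
    rw [h, zero_mulVec] at hev
    rcases smul_eq_zero.1 hev.symm with h1 | h1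
    · exact hrF h1
    · exact hv0 h1
  obtain ⟨i, j, hij⟩ : ∃ i j, e i j ≠ 0 := by
    by_contra hcon
    push Not at hcon
    exact he0 (Matrix.ext hcon)
  have hu : e i ᵥ* Y = e i := by
    have h1 := congrFun he i
    exact h1
  refine adj_two_of_noncomm hn hr hr2 hrF ho (a := B) (b := vecMulVec v (e i)) hBY ?_ fun h => ?_
  · change vecMulVec v (e i) * Y = Y * vecMulVec v (e i)
    rw [vecMulVec_mul, mul_vecMulVec, hu, hv]
  · rw [vecMulVec_mul, mul_vecMulVec] at h
    have h1 : ∀ k, (B *ᵥ v) k * e i j = v k * (e i ᵥ* B) j := fun k => congrFun (congrFun h k) j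
    have h2 : B *ᵥ v = ((e i ᵥ* B) j / e i j) • v := by
      funext k
      rw [Pi.smul_apply, smul_eq_mul, div_mul_eq_mul_div, eq_div_iff hij, h1 k, mul_comm]
    set c := (e i ᵥ* B) j / e i j with hcd
    have h3 : ∀ k : ℕ, B ^ k *ᵥ v = c ^ k • v := by
      intro k
      induction k with
      | zero => rw [pow_zero, pow_zero, one_mulVec, one_smul]
      | succ k ih => rw [pow_succ, ← mulVec_mulVec, h2, mulVec_smul, ih, smul_smul, pow_succ, mul_comm]
    have h4 := h3 r
    rw [hBr, one_mulVec] at h4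
    have h5 : c ^ r = 1 := by
      have h6 : (c ^ r - 1) • v = 0 := by rw [sub_smul, ← h4, one_smul, sub_self]
      exact sub_eq_zero.1 ((smul_eq_zero.1 h6).resolve_right hv0)
    apply hbv
    rw [h2, hroot c h5, one_smul]

/-- elements of `SL₂` of order prime to the characteristic have no fixed vectors -/
theorem eq_one_two [Finite F] {y : Matrix.SpecialLinearGroup (Fin 2) F} {r : ℕ} (hrF : (r : F) ≠ 0)
    (hy : y ^ r = 1) {v : Fin 2 → F} (hv0 : v ≠ 0) (hv : (y : Matrix (Fin 2) (Fin 2) F) *ᵥ v = v) : y = 1 := by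
  have h1 : ((y : Matrix (Fin 2) (Fin 2) F) - 1).det = 0 := by
    rw [← exists_mulVec_eq_zero_iff]
    exact ⟨v, hv0, by rw [sub_mulVec, hv, one_mulVec, sub_self]⟩
  have h2 := y.2
  rw [det_fin_two] at h1 h2
  have h01 : (1 : Matrix (Fin 2) (Fin 2) F) 0 1 = 0 := Matrix.one_apply_ne (by decide)
  have h10 : (1 : Matrix (Fin 2) (Fin 2) F) 1 0 = 0 := Matrix.one_apply_ne (by decide)
  simp only [Matrix.sub_apply, Matrix.one_apply_eq, h01, h10, sub_zero] at h1
  have htr : (y : Matrix (Fin 2) (Fin 2) F) 0 0 + (y : Matrix (Fin 2) (Fin 2) F) 1 1 = 2 := by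
    linear_combination h2 - h1
  have hN : ((y : Matrix (Fin 2) (Fin 2) F) - 1) * ((y : Matrix (Fin 2) (Fin 2) F) - 1) = 0 := by
    ext i j
    rw [Matrix.mul_apply, Fin.sum_univ_two]
    fin_cases i <;> fin_cases j
    · simp [h01, h10]
      linear_combination (y : Matrix (Fin 2) (Fin 2) F) 0 0 * htr - h2
    · simp [h01]
      linear_combination (y : Matrix (Fin 2) (Fin 2) F) 0 1 * htr
    · simp [h10]
      linear_combination (y : Matrix (Fin 2) (Fin 2) F) 1 0 * htr
    · simp [h01, h10]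
      linear_combination (y : Matrix (Fin 2) (Fin 2) F) 1 1 * htr - h2
  have h3 := one_add_pow hN r
  rw [add_sub_cancel, ← Matrix.SpecialLinearGroup.coe_pow, hy, Matrix.SpecialLinearGroup.coe_one] at h3
  have h4 : (r : F) • ((y : Matrix (Fin 2) (Fin 2) F) - 1) = 0 := by
    rw [← sub_eq_zero] at h3
    have h5 : (1 : Matrix (Fin 2) (Fin 2) F) - (1 + (r : F) • ((y : Matrix (Fin 2) (Fin 2) F) - 1)) =
      - ((r : F) • ((y : Matrix (Fin 2) (Fin 2) F) - 1)) := by abel
    rw [h5, neg_eq_zero] at h3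
    exact h3
  have h5 := (smul_eq_zero.1 h4).resolve_left hrF
  apply Subtype.ext
  rw [Matrix.SpecialLinearGroup.coe_one]
  exact sub_eq_zero.1 h5

/-- `PSL₃(q)`, `3 ∣ q - 1`, `q ≠ 4`: the prime 3 is near 2 -/
theorem near_three [Finite F] {ζ : F} (hζ : ζ ^ 3 = 1) (hζ1 : ζ ≠ 1) (hq4 : Nat.card F ≠ 4) :
    Near (ProjectiveSpecialLinearGroup (Fin 3) F) 3 := by
  by_contra hnear
  have hA : ¬ Adj (ProjectiveSpecialLinearGroup (Fin 3) F) 3 2 := fun h => hnear (.of_adj h)
  -- characteristic 2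
  have hF2 : (2 : F) = 0 := by
    by_contra h20
    apply hA
    have h11 : (-1 : F) * -1 * -1 ≠ 1 := by
      intro h
      apply h20
      linear_combination -h
    exact adj_three_of_diag hζ hζ1 Nat.prime_two (by norm_num) (b := -1) (by norm_num) (by simp) h11
  have hchar : CharP F 2 := by
    obtain ⟨p, hp⟩ := CharP.exists F
    have h4 : p ∣ 2 := (CharP.cast_eq_zero_iff F p 2).1 (by exact_mod_cast hF2)
    rcases (Nat.dvd_prime Nat.prime_two).1 h4 with h5 | h5
    · exact absurd h5 (CharP.char_ne_one F p)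
    · rwa [h5] at hp
  have h3q : 3 ∣ Nat.card F - 1 := by
    have := Fintype.ofFinite F
    have hζ0 : ζ ≠ 0 := by
      rintro rfl
      rw [zero_pow (by norm_num)] at hζ
      exact zero_ne_one hζ
    have f3 : Fact (Nat.Prime 3) := ⟨Nat.prime_three⟩
    have h4 : orderOf (Units.mk0 ζ hζ0) = 3 := by
      refine orderOf_eq_prime ?_ ?_
      · apply Units.ext
        rw [Units.val_pow_eq_pow_val, Units.val_mk0, hζ, Units.val_one]
      · intro h
        apply hζ1
        have := congrArg Units.val h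
        rwa [Units.val_mk0, Units.val_one] at this
    rw [← h4, ← Nat.card_units]
    exact orderOf_dvd_natCard _
  have h9q : ¬ 9 ∣ Nat.card F - 1 := by
    intro h9
    apply hA
    have := Fintype.ofFinite F
    have hcu : IsCyclic Fˣ := inferInstance
    obtain ⟨u, hu⟩ := IsCyclic.exists_generator (α := Fˣ)
    have hou : orderOf u = Nat.card F - 1 := by
      rw [orderOf_eq_card_of_forall_mem_zpowers hu, Nat.card_units]
    obtain ⟨k, hk⟩ := h9
    have hk0 : k ≠ 0 := by
      rintro rfl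
      have : 1 < Nat.card F := Finite.one_lt_card
      omega
    have h5 : orderOf (u ^ k) = 9 := by
      rw [orderOf_pow_of_dvd hk0 (by rw [hou, hk]; exact Dvd.intro_left _ rfl), hou, hk,
        Nat.mul_div_cancel _ (Nat.pos_of_ne_zero hk0)]
    refine adj_three_of_nine (a := ((u ^ k : Fˣ) : F)) ?_ ?_
    · rw [← Units.val_pow_eq_pow_val, ← h5, pow_orderOf_eq_one, Units.val_one]
    · intro h
      rw [← Units.val_pow_eq_pow_val] at h
      have h6 : (u ^ k) ^ 3 = 1 := Units.ext h
      have h7 := orderOf_dvd_of_pow_eq_one h6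
      rw [h5] at h7
      norm_num at h7
  by_cases hs : ∃ s : ℕ, s.Prime ∧ s ≠ 3 ∧ s ∣ Nat.card F - 1
  · obtain ⟨s, hs, hs3, hsd⟩ := hs
    have hs2 : s ≠ 2 := by
      rintro rfl
      have h4 : 2 ∣ Nat.card F := by
        have := Fintype.ofFinite F
        obtain ⟨n, -, hn⟩ := FiniteField.card F 2
        rw [Nat.card_eq_fintype_card, hn]
        exact dvd_pow_self 2 n.pos.ne'
      have : 1 < Nat.card F := Finite.one_lt_card
      omega
    obtain ⟨b, hb, hb0, hb3, hb2⟩ := adj_two_three hs hs2 hs3 hsd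
    exact hnear (.of_adj_adj (adj_three_of_diag hζ hζ1 hs hs3 hb hb0 hb3) hb2)
  · push Not at hs
    apply hq4
    obtain ⟨k, hk⟩ : ∃ k, Nat.card F - 1 = 3 ^ k := by
      have : 1 < Nat.card F := Finite.one_lt_card
      refine ⟨_, Nat.eq_prime_pow_of_unique_prime_dvd (by omega) fun {d} hd1 hd2 => ?_⟩
      by_contra hd3
      exact hs d hd1 hd3 hd2
    have hk2 : k < 2 := by
      by_contra hcon
      apply h9q
      rw [hk, show (9 : ℕ) = 3 ^ 2 by norm_num]
      exact pow_dvd_pow 3 (by omega)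
    have hk0 : k ≠ 0 := by
      rintro rfl
      rw [hk] at h3q
      norm_num at h3q
    have hk1 : k = 1 := by omega
    rw [hk1] at hk
    omega

/-- `PSL₂(p)`: the Sylow `p`-subgroups are cyclic. -/
theorem isCyclic_two_char [Finite F] {p : ℕ} (hp : p.Prime) (hpF : Nat.card F = p)
    {R : Subgroup (ProjectiveSpecialLinearGroup (Fin 2) F)} (hR : IsPGroup p R) : IsCyclic R := by
  have f : Fact p.Prime := ⟨hp⟩
  have := Fintype.ofFinite F
  have hfin : Finite (ProjectiveSpecialLinearGroup (Fin 2) F) := inferInstance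
  obtain ⟨k, hk⟩ := IsPGroup.iff_card.1 hR
  have h1 := Cfsg.Agent.S0243.result (F := F) (q := p) (by rw [← Nat.card_eq_fintype_card, hpF]) 2 (by norm_num)
  have hk1 : k ≤ 1 := by
    by_contra hcon
    have h2 : p ^ 2 ∣ Nat.card (ProjectiveSpecialLinearGroup (Fin 2) F) := by
      refine (pow_dvd_pow p (by omega : 2 ≤ k)).trans ?_
      rw [← hk]
      exact Subgroup.card_subgroup_dvd_card R
    have h3 : p ^ 2 ∣ (p ^ 2 - 1) * (p * (p - 1)) := by
      have h4 : ∏ i : Fin 2, (p ^ 2 - p ^ (i : ℕ)) = (p ^ 2 - 1) * (p * (p - 1)) := by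
        rw [Fin.prod_univ_two]
        simp only [Fin.val_zero, Fin.val_one, pow_zero, pow_one]
        rw [Nat.mul_sub p, mul_one, ← pow_two p]
      rw [← h4, ← h1]
      exact (h2.mul_left _).mul_left _
    have hpos := hp.pos
    have h5 : (p ^ 2 - 1) * (p * (p - 1)) = p * ((p ^ 2 - 1) * (p - 1)) := by ring
    rw [h5, pow_two] at h3
    have h6 : p ∣ (p * p - 1) * (p - 1) := Nat.dvd_of_mul_dvd_mul_left hpos h3
    have h7 : ∀ m : ℕ, 0 < m → p ∣ m → ¬ p ∣ m - 1 := by
      intro m hm h1 h2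
      have h8 : p ∣ 1 := by
        have : m - (m - 1) = 1 := by omega
        rw [← this]
        exact Nat.dvd_sub h1 h2
      exact hp.one_lt.ne' (Nat.dvd_one.1 h8)
    rcases hp.dvd_mul.1 h6 with h8 | h8
    · exact h7 (p * p) (Nat.mul_pos hpos hpos) (dvd_mul_right p p) h8
    · exact h7 p hpos dvd_rfl h8
  rcases Nat.le_one_iff_eq_zero_or_eq_one.1 hk1 with rfl | rfl
  · rw [pow_zero] at hk
    have : Subsingleton ↥R := (Nat.card_eq_one_iff_unique.1 hk).1
    exact isCyclic_of_subsingleton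
  · rw [pow_one] at hk
    exact isCyclic_of_prime_card hk

/-- **Abelian subgroups of `PSL_n(q)` of order prime to the primes near 2 are cyclic.** -/
theorem isCyclic_T [Finite F] (hn : 2 ≤ n) {T : Subgroup (ProjectiveSpecialLinearGroup (Fin n) F)}
    (hcomm : ∀ a ∈ T, ∀ b ∈ T, Commute a b)
    (hodd : ∀ p : ℕ, p.Prime → p ∣ Nat.card ↥T → p ≠ 2 ∧ ¬ Near (ProjectiveSpecialLinearGroup (Fin n) F) p)
    (h2 : n = 2 → Even (Nat.card F) ∨ (Nat.card F).Prime) (h3 : ¬ (n = 3 ∧ Nat.card F = 4)) : IsCyclic ↥T := by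
  have hfin : Finite (ProjectiveSpecialLinearGroup (Fin n) F) := inferInstance
  by_contra hnc
  obtain ⟨p, R, hp, hRT, hR, hRc⟩ := Cfsg.Agent.H479.SelfCent.exists_noncyclic_pgroup T hnc
    fun a ha b hb => (hcomm a ha b hb).eq
  have f : Fact p.Prime := ⟨hp⟩
  have hpT : p ∣ Nat.card ↥T := by
    have h1 : Nat.card ↥R ≠ 1 := by
      intro h1
      have : Subsingleton ↥R := (Nat.card_eq_one_iff_unique.1 h1).1
      exact hRc isCyclic_of_subsingleton
    obtain ⟨k, hk⟩ := IsPGroup.iff_card.1 hR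
    have h4 : k ≠ 0 := by
      rintro rfl
      exact h1 (by rw [hk, pow_zero])
    exact ((dvd_pow_self p h4).trans (by rw [← hk])).trans (Subgroup.card_dvd_of_le hRT)
  obtain ⟨hp2, hnear⟩ := hodd p hp hpT
  by_cases hpF : (p : F) = 0
  · rcases Nat.lt_or_ge 2 n with h4 | h4
    · exact hnear (.of_adj (adj_two_of_char (by omega) hp hp2 hpF))
    · have hn2 : n = 2 := by omega
      subst hn2
      have hch := CharP.exists F
      obtain ⟨c, hc⟩ := hch
      have := Fintype.ofFinite F
      have hcp : c = p := by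
        have h5 : c ∣ p := (CharP.cast_eq_zero_iff F c p).1 hpF
        exact ((Nat.dvd_prime hp).1 h5).resolve_left (CharP.char_ne_one F c)
      subst hcp
      obtain ⟨m, -, hm⟩ := FiniteField.card F c
      rw [← Nat.card_eq_fintype_card] at hm
      rcases h2 rfl with h5 | h5
      · have h6 : 2 ∣ c := Nat.prime_two.dvd_of_dvd_pow (n := (m : ℕ)) (by rw [← hm]; exact h5.two_dvd)
        exact hp2 ((Nat.prime_dvd_prime_iff_eq Nat.prime_two hp).1 h6).symm
      · have h6 : c = Nat.card F := (Nat.prime_dvd_prime_iff_eq hp h5).1 (by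
          rw [hm]
          exact dvd_pow_self c m.pos.ne')
        exact hRc (isCyclic_two_char hp h6.symm hR)
  · obtain ⟨P, hP, hPc, hPR⟩ := exists_lift (mk_surjective (F := F) (n := n)) hR hRc
    have hpc : ¬ p ∣ Nat.card F := by
      intro h
      apply hpF
      have := Fintype.ofFinite F
      obtain ⟨c, hc⟩ := CharP.exists F
      obtain ⟨m, hcp, hm⟩ := FiniteField.card F c
      rw [Nat.card_eq_fintype_card, hm] at h
      have h5 := (Nat.prime_dvd_prime_iff_eq hp hcp).1 (hp.dvd_of_dvd_pow h)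
      rw [h5]
      exact CharP.cast_eq_zero F c
    obtain ⟨a, b, ha, hb, hab, hap, hbp, ha1, v, hav, hbv⟩ := Cfsg.Agent.H501.RealGen.nonc (natRep F n) natRep_injective
      hp2 hpc hP hPc
    rw [natRep_apply] at hav hbv
    have hv0 : v ≠ 0 := by
      rintro rfl
      exact hbv (mulVec_zero _)
    by_cases hroot : ∀ c : F, c ^ p = 1 → c = 1
    · exact hnear (.of_adj (adj_two_of_fix hp hp2 hpF hroot hap ha1 hbp hab.symm hav hbv))
    · push Not at hroot
      obtain ⟨c, hc, hc1⟩ := hroot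
      rcases Nat.lt_or_ge n 4 with h4 | h4
      · have h5 : n = 2 ∨ n = 3 := by omega
        rcases h5 with rfl | rfl
        · exact ha1 (eq_one_two hpF hap hv0 hav)
        · by_cases hp3 : p = 3
          · subst hp3
            exact hnear (near_three hc hc1 fun h => h3 ⟨rfl, h⟩)
          · have hc0 : c ≠ 0 := by
              rintro rfl
              rw [zero_pow hp.ne_zero] at hc
              exact zero_ne_one hc
            have h6 : orderOf (Units.mk0 c hc0) = p := by
              refine orderOf_eq_prime ?_ ?_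
              · apply Units.ext
                rw [Units.val_pow_eq_pow_val, Units.val_mk0, hc, Units.val_one]
              · intro h
                apply hc1
                have := congrArg Units.val h
                rwa [Units.val_mk0, Units.val_one] at this
            have h7 : p ∣ Nat.card F - 1 := by
              rw [← h6, ← Nat.card_units]
              exact orderOf_dvd_natCard _
            obtain ⟨-, -, -, -, h8⟩ := adj_two_three hp hp2 hp3 h7
            exact hnear (.of_adj h8)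
      · exact hnear (.of_adj (adj_two_of_root h4 hp hp2 hc hc1))

/-- **The row of `PSL_n(q)`** -/
theorem row_isPSL {S : Type*} [Group S] (h : Cfsg.IsPSL S) : Row S := by
  obtain ⟨F, _, _, n, hn, -, ⟨e⟩⟩ := h
  have hfin : Finite (ProjectiveSpecialLinearGroup (Fin n) F) := inferInstance
  refine Row.congr e.symm fun r hr hd hnc => ?_
  have hcc := good2 (F := F) hn r hr hd fun h' => hnc h'.conn
  by_cases h3 : n = 3 ∧ Nat.card F = 4
  · obtain ⟨rfl, h3⟩ := h3
    exact Or.inr ⟨hcc, Or.inl ⟨F, inferInstance, inferInstance, by rw [← Nat.card_eq_fintype_card, h3],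
      ⟨MulEquiv.refl _⟩⟩⟩
  by_cases h2 : n = 2 → Even (Nat.card F) ∨ (Nat.card F).Prime
  · left
    obtain ⟨T, h4, h5, h6⟩ := hcc
    refine ⟨T, h4, isCyclic_T hn h5 (fun p hp hpT => ?_) h2 h3, h6⟩
    have h7 := ((prime_iff hr h4 h5 h6 hp).1 hpT).2
    constructor
    · rintro rfl
      exact hnc h7
    · intro h8
      exact hnc (h7.trans h8.conn)
  · push Not at h2
    obtain ⟨rfl, h2, h2'⟩ := h2
    exact Or.inr ⟨hcc, Or.inr ⟨F, inferInstance, inferInstance, by
      rw [← Nat.card_eq_fintype_card]; exact Nat.not_even_iff_odd.1 h2, by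
      rw [← Nat.card_eq_fintype_card]; exact h2', ⟨MulEquiv.refl _⟩⟩⟩

end Cfsg.Agent.H129.IsoPSL
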